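import Mathlib
import Cfsg.Agent.SL2.Elements

set_option autoImplicit false

/-!
`SL₂(5)` inside `Sp₄(3)`.
-/

namespace CfsgLib.H29.SL25Sp4

open Matrix

set_option synthInstance.maxSize 4000 in
set_option synthInstance.maxHeartbeats 400000 in
theorem model_inverter : ∀ a b c d : ZMod 5, a * d - b * c = 1 →
    a * (a * a + b * c) + b * (c * a + d * c) = 1 → a * (a * b + b * d) + b * (c * b + d * d) = 0 →
    c * (a * a + b * c) + d * (c * a + d * c) = 0 →
    ∃ e f g h : ZMod 5, e * h - f * g = 1 ∧ e + h = 0 ∧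
      e * a + f * c = d * e - b * g ∧ e * b + f * d = d * f - b * h ∧
      g * a + h * c = -c * e + a * g ∧ g * b + h * d = -c * f + a * h := by decide +kernel

theorem exists_inverter {K : Type*} [Field K] [Fintype K] (hK : Fintype.card K = 5)
    (x : SpecialLinearGroup (Fin 2) K) (hx : x ^ 3 = 1) :
    ∃ y : SpecialLinearGroup (Fin 2) K, y * y = -1 ∧ y * x = x⁻¹ * y := by
  let ψ : ZMod 5 ≃+* K := ZMod.ringEquivOfPrime K (by norm_num) hK
  obtain ⟨a, ha⟩ := ψ.surjective (x.1 0 0)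
  obtain ⟨b, hb⟩ := ψ.surjective (x.1 0 1)
  obtain ⟨c, hc⟩ := ψ.surjective (x.1 1 0)
  obtain ⟨d, hd⟩ := ψ.surjective (x.1 1 1)
  rw [pow_succ', pow_two] at hx
  have h00 := congrArg (fun z : SpecialLinearGroup (Fin 2) K => z.1 0 0) hx
  have h01 := congrArg (fun z : SpecialLinearGroup (Fin 2) K => z.1 0 1) hx
  have h10 := congrArg (fun z : SpecialLinearGroup (Fin 2) K => z.1 1 0) hx
  simp only [CfsgLib.SL2.mul00, CfsgLib.SL2.mul01, CfsgLib.SL2.mul10, CfsgLib.SL2.mul11, ← ha, ← hb,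
    ← hc, ← hd, ← map_mul, ← map_add] at h00 h01 h10
  have e00 : (1 : SpecialLinearGroup (Fin 2) K).1 0 0 = ψ 1 := by simp
  have e01 : (1 : SpecialLinearGroup (Fin 2) K).1 0 1 = ψ 0 := by simp
  have e10 : (1 : SpecialLinearGroup (Fin 2) K).1 1 0 = ψ 0 := by simp
  rw [e00] at h00; rw [e01] at h01; rw [e10] at h10
  have hdet := CfsgLib.SL2.det_eq x
  rw [← ha, ← hb, ← hc, ← hd, ← map_mul, ← map_mul, ← map_sub, ← map_one ψ] at hdet
  obtain ⟨e, f, g, h, h1, h2, h3, h4, h5, h6⟩ := model_inverter a b c d (ψ.injective hdet)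
    (ψ.injective h00) (ψ.injective h01) (ψ.injective h10)
  refine ⟨CfsgLib.SL2.mk2 (ψ e) (ψ f) (ψ g) (ψ h) (by rw [← map_mul, ← map_mul, ← map_sub, h1, map_one]), ?_, ?_⟩
  · have hh : h = -e := eq_neg_of_add_eq_zero_right h2
    have e1 : ψ e * ψ e + ψ f * ψ g = -1 := by
      rw [← map_mul, ← map_mul, ← map_add, show e * e + f * g = -1 by rw [← h1, hh]; ring, map_neg, map_one]
    apply CfsgLib.SL2.ext2 <;>
      simp [CfsgLib.SL2.mul00, CfsgLib.SL2.mul01, CfsgLib.SL2.mul10, CfsgLib.SL2.mul11, hh] <;>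
      first | linear_combination e1 | ring1
  · apply CfsgLib.SL2.ext2 <;>
      simp only [CfsgLib.SL2.mul00, CfsgLib.SL2.mul01, CfsgLib.SL2.mul10, CfsgLib.SL2.mul11,
        CfsgLib.SL2.inv00, CfsgLib.SL2.inv01, CfsgLib.SL2.inv10, CfsgLib.SL2.inv11, CfsgLib.SL2.mk2_coe,
        Matrix.of_apply, Matrix.cons_val_zero, Matrix.cons_val_one, ← ha, ← hb, ← hc, ← hd, ← map_neg,
        ← map_mul, ← map_add] <;> congr 1 <;>
      first | linear_combination h3 | linear_combination h4 | linear_combination h5 | linear_combination h6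

variable {F V : Type*} [Field F] [Fintype F] [AddCommGroup V] [Module F V] [FiniteDimensional F V]

theorem trivial_of_small (hF : Fintype.card F = 3) (g : V →ₗ[F] V) (hg : g ^ 5 = 1)
    (U : Submodule F V) (hU : ∀ v ∈ U, g v ∈ U) (hd : Module.finrank F U ≤ 3) :
    ∀ v ∈ U, g v = v := by
  classical
  set r := g.restrict hU with hr
  have hpow : ∀ m (u : U), ((r ^ m) u : V) = (g ^ m) u := fun m u => by
    induction m with
    | zero => rfl
    | succ m ih => rw [pow_succ', pow_succ', Module.End.mul_apply, Module.End.mul_apply, ← ih]; rfl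
  have h5 : r ^ 5 = 1 := LinearMap.ext fun u => Subtype.ext (by rw [hpow, hg]; rfl)
  let ru : (Module.End F U)ˣ := Units.ofPowEqOne r 5 h5 (by norm_num)
  have ho : orderOf ru ∣ 5 := orderOf_dvd_of_pow_eq_one (Units.pow_ofPowEqOne h5 _)
  have hcard : ¬ 5 ∣ Nat.card (Module.End F U)ˣ := by
    have e := (Units.mapEquiv ((LinearMap.toMatrixAlgEquiv (Module.finBasis F U)).toMulEquiv :
      Module.End F U ≃* Matrix (Fin (Module.finrank F U)) (Fin (Module.finrank F U)) F)).toEquiv
    rw [Nat.card_congr e, Matrix.card_GL_field, hF]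
    generalize Module.finrank F U = k at hd ⊢
    interval_cases k <;> simp [Fin.prod_univ_succ]
  rcases (Nat.dvd_prime (by norm_num)).mp ho with h | h
  · rw [orderOf_eq_one_iff] at h
    intro v hv
    have : r ⟨v, hv⟩ = ⟨v, hv⟩ := by
      have := congrArg (fun z : (Module.End F U)ˣ => (z : Module.End F U) ⟨v, hv⟩) h
      simpa [ru] using this
    exact congrArg Subtype.val this
  · exact absurd (h ▸ orderOf_dvd_natCard ru) hcard

end CfsgLib.H29.SL25Sp4
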